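/-
Field automorphisms on root elements, words and the diagonal subgroup.
-/
import Cfsg.Agent.Lib.Tw.Comm
import Cfsg.Agent.Lib.Chev.FieldAut

set_option autoImplicit false

namespace Cfsg.Agent.Lib.ReeAut

open Cfsg.Lie Cfsg.Agent.Lib.Chev

section General

variable {F : Type*} [Field F] {D : ChevalleyDatum} {T : Tbl}

lemma x_map (θ : F ≃+* F) (r : ℕ) (t : F) : (D.x F r t).map θ = D.x F r (θ t) := by
  by_cases hr : r < D.nroots
  · simp only [ChevalleyDatum.x, hr, dif_pos]
    exact xMat_map D θ.toRingHom ⟨r, hr⟩ t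
  · simp only [ChevalleyDatum.x, hr, dif_neg, not_false_eq_true]
    ext i j
    simp [Matrix.one_apply]

lemma wordMat_map (θ : F ≃+* F) (l : List (ℕ × F)) :
    (D.wordMat F l).map θ = D.wordMat F (l.map fun e => (e.1, θ e.2)) := by
  induction l with
  | nil =>
    simp only [List.map_nil]
    unfold ChevalleyDatum.wordMat
    simp only [List.map_nil, List.prod_nil]
    ext i j
    simp [Matrix.one_apply]
  | cons e l ih =>
    rw [List.map_cons, wordMat_cons, wordMat_cons]
    have : (D.x F e.1 e.2 * D.wordMat F l).map θ = (D.x F e.1 e.2).map θ * (D.wordMat F l).map θ :=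
      Matrix.map_mul
    rw [this, ih, x_map]

lemma glMap_H (θ : F ≃+* F) {g : GL D.Idx F} (hg : g ∈ D.diagonalSubgroup F) :
    glMap D θ g ∈ D.diagonalSubgroup F := by
  induction hg using Subgroup.closure_induction with
  | mem x hx =>
    obtain ⟨r, t, hr, ht, hx⟩ := hx
    refine Subgroup.subset_closure ⟨r, θ t, hr, (map_ne_zero θ).2 ht, ?_⟩
    rw [glMap_coe, hx]
    unfold ChevalleyDatum.hMat
    rw [wordMat_map]
    congr 1
    simp [ChevalleyDatum.hWord, ChevalleyDatum.nWord]
  | one =>
    rw [map_one]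
    exact Subgroup.one_mem _
  | mul a b _ _ ha hb =>
    rw [map_mul]
    exact Subgroup.mul_mem _ ha hb
  | inv a _ ha =>
    rw [map_inv]
    exact Subgroup.inv_mem _ ha

lemma glMap_xN (hG : T.Good2 D) (θ : F ≃+* F) (r : ℕ) (t : F) : glMap D θ (hG.xN r t) = hG.xN r (θ t) := by
  apply Units.ext
  rw [glMap_coe, hG.xN_coe, hG.xN_coe]
  exact x_map θ r t

end General

section General2

variable {F : Type*} [Field F] {D : ChevalleyDatum}

lemma glMap_rootsGen (θ : F ≃+* F) {P : ℕ → Prop} (hP : ∀ r, P r → r < D.nroots) {g : GL D.Idx F} (hg : g ∈ rootsGen D F P) :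
    glMap D θ g ∈ rootsGen D F P := by
  induction hg using Subgroup.closure_induction with
  | mem x hx =>
    obtain ⟨r, t, hr, hx⟩ := hx
    refine Subgroup.subset_closure ⟨r, θ t, hr, ?_⟩
    rw [glMap_coe, hx]
    exact x_map θ r t
  | one =>
    rw [map_one]
    exact Subgroup.one_mem _
  | mul a b _ _ ha hb =>
    rw [map_mul]
    exact Subgroup.mul_mem _ ha hb
  | inv a _ ha =>
    rw [map_inv]
    exact Subgroup.inv_mem _ ha

lemma glMap_glMap_symm (θ : F ≃+* F) (g : GL D.Idx F) : glMap D θ.symm (glMap D θ g) = g :=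
  glMap_symm D θ.symm g

end General2

end Cfsg.Agent.Lib.ReeAut
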